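import Cfsg.Agent.R2.Spec.P1.TopBlk

/-!
# S3435, box X5 (helper12): the elimination

`2 h P0 = q V + 1`, `c0 P0 = F (u ^ k0 - ε0)`, `T ∣ κ (V - δ)`:
* `e1` : one torus `T c1 = u ^ k - ε`, `k0 = k + e`;
* `e2` : two tori;
* `e3` : one torus, `k = k0 + 1`.
-/

set_option autoImplicit false

namespace Cfsg.Agent.R2.Spec.X5

open Cfsg.Agent.R2.Spec.P1.Eig

/-- the elimination -/
theorem elim {T κ : ℕ} {q V H F C0 P0 Q0 ρ δ lam : ℤ} (h1 : H * P0 = q * V + 1) (h2 : C0 * P0 = F * (Q0 - 1))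
    (h3 : (T : ℤ) ∣ lam * (Q0 - 1) - ρ) (h4 : (T : ℤ) ∣ κ * (V - δ)) :
    (T : ℤ) ∣ κ * (H * F * ρ - lam * C0 * (1 + δ * q)) := by
  have h5 : (κ : ℤ) * (H * F * ρ - lam * C0 * (1 + δ * q)) =
      lam * C0 * q * (κ * (V - δ)) - κ * H * F * (lam * (Q0 - 1) - ρ) := by
    linear_combination ((κ : ℤ) * lam * C0) * h1 - (κ : ℤ) * lam * H * h2
  rw [h5]
  exact dvd_sub (h4.mul_left _) (h3.mul_left _)

theorem eq_zero_of_lt {T κ : ℕ} {Z : ℤ} {B : ℕ} (h : (T : ℤ) ∣ κ * Z) (hκ : 1 ≤ κ) (hZ : |Z| ≤ (B : ℤ)) :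
    Z = 0 ∨ T ≤ κ * B := by
  by_cases h0 : Z = 0
  · exact Or.inl h0
  · right
    have h1 : (κ : ℤ) * Z ≠ 0 := mul_ne_zero (by exact_mod_cast (show κ ≠ 0 by omega)) h0
    have h2 := Int.le_of_dvd (abs_pos.2 h1) ((dvd_abs _ _).2 h)
    rw [abs_mul, Nat.abs_cast] at h2
    have h3 : (κ : ℤ) * |Z| ≤ κ * B := mul_le_mul_of_nonneg_left hZ (by positivity)
    exact_mod_cast h2.trans h3

theorem pm_mul {a b : ℤ} (ha : a = 1 ∨ a = -1) (hb : b = 1 ∨ b = -1) : a * b = 1 ∨ a * b = -1 := by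
  rcases ha with rfl | rfl <;> rcases hb with rfl | rfl <;> norm_num

theorem abs_pm {a : ℤ} (ha : a = 1 ∨ a = -1) : |a| = 1 := by
  rcases ha with rfl | rfl <;> norm_num

theorem AN_int {δ : ℤ} (hδ : δ = 1 ∨ δ = -1) {m q : ℕ} (hq : 1 ≤ q) : ((AN δ m q : ℕ) : ℤ) = (q : ℤ) ^ m - δ := by
  have : 1 ≤ q ^ m := Nat.one_le_pow _ _ hq
  rcases hδ with rfl | rfl
  · rw [AN_one, Nat.cast_sub this]; push_cast; ring
  · rw [AN_neg]; push_cast; ring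

theorem AN_dvd {δ : ℤ} (hδ : δ = 1 ∨ δ = -1) {m q : ℕ} (hq : 1 ≤ q) {T : ℕ} (h : T ∣ AN δ m q) :
    (T : ℤ) ∣ δ * (q : ℤ) ^ m - 1 := by
  have h1 : (T : ℤ) ∣ (q : ℤ) ^ m - δ := by
    rw [← AN_int hδ hq]
    exact_mod_cast h
  have h2 : δ * (q : ℤ) ^ m - 1 = δ * ((q : ℤ) ^ m - δ) := by
    rcases hδ with rfl | rfl <;> ring
  rw [h2]
  exact h1.mul_left _

variable {q V h F c0 P0 u k e b r k0 T κ c1 : ℕ} {ε0 ε ε' δ : ℤ}

/-- the data -/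
structure Dat (q V h F c0 P0 u k0 : ℕ) (ε0 : ℤ) : Prop where
  pm : ε0 = 1 ∨ ε0 = -1
  upos : 1 ≤ u
  l : 2 * h * P0 = q * V + 1
  s : c0 * P0 = F * AN ε0 k0 u

theorem Dat.elim (D : Dat q V h F c0 P0 u k0 ε0) {ρ lam : ℤ} (h3 : (T : ℤ) ∣ lam * (ε0 * (u : ℤ) ^ k0 - 1) - ρ)
    (h4 : (T : ℤ) ∣ κ * ((V : ℤ) - δ)) :
    (T : ℤ) ∣ κ * (2 * h * F * ρ - lam * (ε0 * c0) * (1 + δ * q)) := by
  have h1 : (2 * h : ℤ) * P0 = q * V + 1 := by exact_mod_cast D.l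
  have h2 : (ε0 * c0 : ℤ) * P0 = F * (ε0 * (u : ℤ) ^ k0 - 1) := by
    have h5 : (c0 : ℤ) * P0 = F * ((u : ℤ) ^ k0 - ε0) := by
      rw [← AN_int D.pm D.upos]
      exact_mod_cast D.s
    have h6 : ε0 * ε0 = 1 := by rcases D.pm with h | h <;> rw [h] <;> norm_num
    linear_combination ε0 * h5 + (F : ℤ) * (-1) * h6
  exact X5.elim h1 h2 h3 h4

/-- **One torus.** -/
theorem Dat.e1 (D : Dat q V h F c0 P0 u (k + e) ε0) (hε : ε = 1 ∨ ε = -1) (hδ : δ = 1 ∨ δ = -1)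
    (h3 : T ∣ AN ε k u) (h4 : (T : ℤ) ∣ κ * ((V : ℤ) - δ)) (hκ : 1 ≤ κ) :
    (2 * h * F * (ε0 * ε * (u : ℤ) ^ e - 1) = ε0 * c0 * (1 + δ * q)) ∨
      T ≤ κ * (2 * h * F * (u ^ e + 1) + c0 * (q + 1)) := by
  have h5 := AN_dvd hε D.upos h3
  have h6 : ε * ε = 1 := by rcases hε with h | h <;> rw [h] <;> norm_num
  have h7 := D.elim (ρ := ε0 * ε * (u : ℤ) ^ e - 1) (lam := 1) (T := T) (κ := κ) (δ := δ) (by
    have h8 : (1 : ℤ) * (ε0 * (u : ℤ) ^ (k + e) - 1) - (ε0 * ε * (u : ℤ) ^ e - 1) =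
        (ε0 * ε * (u : ℤ) ^ e) * (ε * (u : ℤ) ^ k - 1) := by
      rw [pow_add]
      linear_combination (-(ε0 * (u : ℤ) ^ e * (u : ℤ) ^ k)) * h6
    rw [h8]
    exact h5.mul_left _) h4
  rw [one_mul] at h7
  have key := eq_zero_of_lt h7 hκ (B := 2 * h * F * (u ^ e + 1) + c0 * (q + 1))
  suffices hB : _ by
    rcases key hB with h8 | h8
    · left; linear_combination h8
    · right; exact h8
  · have e1 : |(ε0 * ε * (u : ℤ) ^ e - 1)| ≤ (u : ℤ) ^ e + 1 := by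
      refine (abs_sub _ _).trans ?_
      rw [abs_mul, abs_pm (pm_mul D.pm hε), abs_of_nonneg (by positivity : (0 : ℤ) ≤ (u : ℤ) ^ e)]
      norm_num
    have e2 : |(1 + δ * (q : ℤ))| ≤ q + 1 := by
      rcases hδ with h | h <;> rw [h] <;> refine abs_le.2 ⟨?_, ?_⟩ <;> push_cast <;> linarith [Int.natCast_nonneg q]
    refine (abs_sub _ _).trans ?_
    rw [abs_mul, abs_mul (ε0 * (c0 : ℤ)), abs_mul ε0, abs_pm D.pm, one_mul]
    push_cast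
    have e3 : |((2 : ℤ) * h * F)| = 2 * h * F := abs_of_nonneg (by positivity)
    have e4 : |((c0 : ℤ))| = c0 := abs_of_nonneg (by positivity)
    rw [e3, e4]
    gcongr

/-- **Two tori.** -/
theorem Dat.e2 (D : Dat q V h F c0 P0 u (k + b + r) ε0) (hε : ε = 1 ∨ ε = -1) (hε' : ε' = 1 ∨ ε' = -1)
    (hδ : δ = 1 ∨ δ = -1)
    (h3 : T ∣ Nat.lcm (AN ε k u) (AN ε' b u)) (h4 : (T : ℤ) ∣ κ * ((V : ℤ) - δ)) (hκ : 1 ≤ κ) :
    (2 * h * F * (ε0 * ε * ε' * (u : ℤ) ^ r * (ε * (u : ℤ) ^ k + ε' * (u : ℤ) ^ b - 1) - 1) =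
      ε0 * c0 * (1 + δ * q)) ∨
      T ≤ κ * (2 * h * F * (u ^ r * (u ^ k + u ^ b + 1) + 1) + c0 * (q + 1)) := by
  have h5 : (T : ℤ) ∣ (ε * (u : ℤ) ^ k - 1) * (ε' * (u : ℤ) ^ b - 1) := by
    have h6 : (T : ℤ) ∣ (AN ε k u * AN ε' b u : ℕ) := by
      exact_mod_cast h3.trans (Nat.lcm_dvd_mul _ _)
    push_cast at h6
    rw [AN_int hε D.upos, AN_int hε' D.upos] at h6
    have h7 : (ε * (u : ℤ) ^ k - 1) * (ε' * (u : ℤ) ^ b - 1) =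
        (ε * ε') * (((u : ℤ) ^ k - ε) * ((u : ℤ) ^ b - ε')) := by
      rcases hε with h | h <;> rcases hε' with h' | h' <;> rw [h, h'] <;> ring
    rw [h7]
    exact h6.mul_left _
  have h6 : ε * ε = 1 := by rcases hε with h | h <;> rw [h] <;> norm_num
  have h6' : ε' * ε' = 1 := by rcases hε' with h | h <;> rw [h] <;> norm_num
  have h7 := D.elim (ρ := ε0 * ε * ε' * (u : ℤ) ^ r * (ε * (u : ℤ) ^ k + ε' * (u : ℤ) ^ b - 1) - 1) (lam := 1)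
    (T := T) (κ := κ) (δ := δ) (by
    have h8 : (1 : ℤ) * (ε0 * (u : ℤ) ^ (k + b + r) - 1) -
        (ε0 * ε * ε' * (u : ℤ) ^ r * (ε * (u : ℤ) ^ k + ε' * (u : ℤ) ^ b - 1) - 1) =
        (ε0 * ε * ε' * (u : ℤ) ^ r) * ((ε * (u : ℤ) ^ k - 1) * (ε' * (u : ℤ) ^ b - 1)) := by
      rw [pow_add, pow_add]
      rcases hε with h | h <;> rcases hε' with h' | h' <;> rw [h, h'] <;> ring
    rw [h8]
    exact h5.mul_left _) h4
  rw [one_mul] at h7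
  have key := eq_zero_of_lt h7 hκ (B := 2 * h * F * (u ^ r * (u ^ k + u ^ b + 1) + 1) + c0 * (q + 1))
  suffices hB : _ by
    rcases key hB with h8 | h8
    · left; linear_combination h8
    · right; exact h8
  · have e0 : |(ε * (u : ℤ) ^ k + ε' * (u : ℤ) ^ b - 1)| ≤ (u : ℤ) ^ k + (u : ℤ) ^ b + 1 := by
      have : (0 : ℤ) ≤ (u : ℤ) ^ k := by positivity
      have : (0 : ℤ) ≤ (u : ℤ) ^ b := by positivity
      rcases hε with h | h <;> rcases hε' with h' | h' <;> rw [h, h'] <;> refine abs_le.2 ⟨?_, ?_⟩ <;> linarith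
    have e1 : |(ε0 * ε * ε' * (u : ℤ) ^ r * (ε * (u : ℤ) ^ k + ε' * (u : ℤ) ^ b - 1) - 1)| ≤
        (u : ℤ) ^ r * ((u : ℤ) ^ k + (u : ℤ) ^ b + 1) + 1 := by
      refine (abs_sub _ _).trans ?_
      rw [abs_mul, abs_mul, abs_pm (pm_mul (pm_mul D.pm hε) hε'), one_mul,
        abs_of_nonneg (by positivity : (0 : ℤ) ≤ (u : ℤ) ^ r), abs_one]
      gcongr
    have e2 : |(1 + δ * (q : ℤ))| ≤ q + 1 := by
      rcases hδ with h | h <;> rw [h] <;> refine abs_le.2 ⟨?_, ?_⟩ <;> push_cast <;> linarith [Int.natCast_nonneg q]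
    refine (abs_sub _ _).trans ?_
    rw [abs_mul, abs_mul (ε0 * (c0 : ℤ)), abs_mul ε0, abs_pm D.pm, one_mul]
    push_cast
    have e3 : |((2 : ℤ) * h * F)| = 2 * h * F := abs_of_nonneg (by positivity)
    have e4 : |((c0 : ℤ))| = c0 := abs_of_nonneg (by positivity)
    rw [e3, e4]
    gcongr

/-- **One torus, larger than the first one.** -/
theorem Dat.e3 (D : Dat q V h F c0 P0 u k0 ε0) (hε : ε = 1 ∨ ε = -1) (hδ : δ = 1 ∨ δ = -1)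
    (h3 : T ∣ AN ε (k0 + 1) u) (h4 : (T : ℤ) ∣ κ * ((V : ℤ) - δ)) (hκ : 1 ≤ κ) :
    (2 * h * F * (1 - ε0 * ε * u) = ε0 * ε * u * (ε0 * c0) * (1 + δ * q)) ∨
      T ≤ κ * (2 * h * F * (u + 1) + u * c0 * (q + 1)) := by
  have h5 := AN_dvd hε D.upos h3
  have h6 : ε0 * ε0 = 1 := by rcases D.pm with h | h <;> rw [h] <;> norm_num
  have h7 := D.elim (ρ := 1 - ε0 * ε * u) (lam := ε0 * ε * u) (T := T) (κ := κ) (δ := δ) (by
    have h8 : (ε0 * ε * u : ℤ) * (ε0 * (u : ℤ) ^ k0 - 1) - (1 - ε0 * ε * u) = ε * (u : ℤ) ^ (k0 + 1) - 1 := by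
      rw [pow_succ]
      linear_combination ((ε * (u : ℤ) ^ k0 * u)) * h6
    rw [h8]
    exact h5) h4
  have key := eq_zero_of_lt h7 hκ (B := 2 * h * F * (u + 1) + u * c0 * (q + 1))
  suffices hB : _ by
    rcases key hB with h8 | h8
    · left; linear_combination h8
    · right; exact h8
  · have e1 : |(1 - ε0 * ε * (u : ℤ))| ≤ (u : ℤ) + 1 := by
      rcases pm_mul D.pm hε with h | h <;> rw [h] <;> refine abs_le.2 ⟨?_, ?_⟩ <;> linarith [Int.natCast_nonneg u]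
    have e2 : |(1 + δ * (q : ℤ))| ≤ q + 1 := by
      rcases hδ with h | h <;> rw [h] <;> refine abs_le.2 ⟨?_, ?_⟩ <;> push_cast <;> linarith [Int.natCast_nonneg q]
    refine (abs_sub _ _).trans ?_
    rw [abs_mul, abs_mul (ε0 * ε * (u : ℤ) * (ε0 * c0)), abs_mul (ε0 * ε * (u : ℤ)), abs_mul ε0 (c0 : ℤ),
      abs_mul (ε0 * ε), abs_pm (pm_mul D.pm hε), abs_pm D.pm, one_mul, one_mul]
    push_cast
    have e3 : |((2 : ℤ) * h * F)| = 2 * h * F := abs_of_nonneg (by positivity)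
    have e4 : |((c0 : ℤ))| = c0 := abs_of_nonneg (by positivity)
    have e5 : |((u : ℤ))| = u := abs_of_nonneg (by positivity)
    rw [e3, e4, e5]
    gcongr

end Cfsg.Agent.R2.Spec.X5
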