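import Cfsg.Agent.R2.Spec.X5.SizeB
import Cfsg.Agent.R2.Spec.X5.Zero
import Cfsg.Agent.R2.Spec.X5.FinBh

/-!
# S3435, box X5 (helper12): the numbers, families `B`, `C`, `D`
-/

set_option autoImplicit false

namespace Cfsg.Agent.R2.Spec.X5

open Cfsg.Agent.R2.Spec.P1.Eig

section

variable {q V h F c0 P0 u k0 T κ c1 P k b r n v : ℕ} {ε0 ε ε' δ : ℤ}

/-- the equality of `e3` is impossible -/
theorem e3_ne (hv : v.Prime) (hvu : v ∣ u) (hvh : ¬ v ∣ h) (hvF : ¬ v ∣ F) (hqo : Odd q) (hho : Odd h)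
    (hδ : δ = 1 ∨ δ = -1)
    (h1 : (2 * h * F * (1 - ε0 * ε * u) = ε0 * ε * u * (ε0 * c0) * (1 + δ * q) : Prop)) : False := by
  have hvi : Prime (v : ℤ) := Nat.prime_iff_prime_int.1 hv
  have hvz : (v : ℤ) ∣ u := by exact_mod_cast hvu
  have h2 : (v : ℤ) ∣ 2 * h * F * (1 - ε0 * ε * u) := by
    rw [h1]
    exact (((hvz.mul_left _).mul_right _).mul_right _)
  have h3 : ¬ (v : ℤ) ∣ (1 - ε0 * ε * u) := by
    intro h3
    have h4 := dvd_add h3 (hvz.mul_left (ε0 * ε))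
    rw [sub_add_cancel] at h4
    exact hvi.not_isUnit (isUnit_of_dvd_one h4)
  have h4 := (hvi.dvd_or_dvd h2).resolve_right h3
  have h5 := (hvi.dvd_or_dvd h4).resolve_right (by exact_mod_cast hvF)
  have h6 := (hvi.dvd_or_dvd h5).resolve_right (by exact_mod_cast hvh)
  have hv2 : v = 2 := (Nat.prime_dvd_prime_iff_eq hv Nat.prime_two).1 (by exact_mod_cast h6)
  subst hv2
  have hFo : Odd F := by
    rw [← Nat.not_even_iff_odd, even_iff_two_dvd]
    exact hvF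
  obtain ⟨a, ha⟩ := hvz
  obtain ⟨b, hb⟩ := hqo
  obtain ⟨c, hc⟩ := hho.mul hFo
  have hc' : (h : ℤ) * F = 2 * c + 1 := by exact_mod_cast hc
  have hb' : (q : ℤ) = 2 * b + 1 := by exact_mod_cast hb
  have e1 : (2 * h * F * (1 - ε0 * ε * u) : ℤ) = 2 * (2 * c + 1) * (1 - ε0 * ε * u) := by
    linear_combination 2 * (1 - ε0 * ε * u) * hc'
  rw [e1, ha] at h1
  push_cast at h1
  have hδq : ∃ e : ℤ, 1 + δ * (q : ℤ) = 2 * e := by
    rcases hδ with rfl | rfl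
    · exact ⟨b + 1, by rw [hb']; ring⟩
    · exact ⟨-b, by rw [hb']; ring⟩
  obtain ⟨e, he⟩ := hδq
  rw [he] at h1
  have e2 : (2 * (2 * (c : ℤ) + 1) * (1 - ε0 * ε * (2 * a))) - ε0 * ε * (2 * a) * (ε0 * c0) * (2 * e) = 0 := by
    linear_combination h1
  have e3 : (2 : ℤ) = 4 * (-(c : ℤ) + (2 * c + 1) * (ε0 * ε * a) + ε0 * ε * a * (ε0 * c0) * e) := by
    linear_combination e2
  omega

/-- **The data of one sign `δ`, families `B`, `C`, `D`** (`m` the rank of `S`). -/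
structure SgB (q n u m k0 : ℕ) (δ : ℤ) (k : ℕ) (ε : ℤ) : Prop where
  ppm : ε = 1 ∨ ε = -1
  odd : ε = 1 → Odd k
  big : m + 1 ≤ 2 * k
  le : k ≤ m
  one : k ≤ k0 → ∃ T κ c1, c1 ∣ 2 ∧ T * c1 = AN ε k u ∧ 1 ≤ κ ∧ κ ≤ q + 1 ∧ (T : ℤ) ∣ κ * ((q ^ (n - 1) : ℕ) - δ)
  top : k = k0 + 1 → ∃ T κ c1, c1 ∣ 4 ∧ T * c1 = AN ε k u ∧ 1 ≤ κ ∧ κ ≤ q + 1 ∧ (T : ℤ) ∣ κ * ((q ^ (n - 1) : ℕ) - δ)
  two : ∀ b ε', (ε' = 1 ∨ ε' = -1) → 1 ≤ b → k + b + 1 = m → ∃ T κ c, c ∣ 2 ∧ T * c = Nat.lcm (AN ε k u) (AN ε' b u) ∧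
    1 ≤ κ ∧ κ ≤ q + 1 ∧ (T : ℤ) ∣ κ * ((q ^ (n - 1) : ℕ) - δ)
  sc6 : n = 6 → 2 * q ^ 4 ≤ 15 * (u ^ k + 1)
  sc8 : n = 8 → 2 * q ^ 6 ≤ 21 * (u ^ k + 1)
  sc10 : n = 10 → ∃ R : ℕ, q ^ 6 ≤ 4 * R ∧ R ∣ AN ε k u ∧ (R : ℤ) ∣ ((q ^ (n - 1) : ℕ) - δ)

/-- **The data, families `B`, `C`, `D`.** -/
structure NB (q n v u w h F c0 P0 m k0 : ℕ) (ε0 : ℤ) : Prop where
  D : Dat q (q ^ (n - 1)) h F c0 P0 u k0 ε0
  n6 : 6 ≤ n
  ne : n % 2 = 0
  q3 : 3 ≤ q
  qo : Odd q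
  vp : v.Prime
  vq : ¬ v ∣ q
  vu : ∃ f', 1 ≤ f' ∧ u = v ^ f'
  uw : u = w ^ h
  w2 : 2 ≤ w
  ho : Odd h
  vh : ¬ v ∣ h
  F1 : F = 1 ∨ F = u - 1 ∨ F = u + 1
  k0m : k0 = m ∧ F = 1 ∨ k0 + 1 = m
  c0d : c0 ∣ 4
  c2 : v = 2 → c0 = 1
  k5 : 5 ≤ k0
  m11 : 12 ≤ n → 11 ≤ m

theorem NB.small {w m : ℕ} (N : NB q n v u w h F c0 P0 m k0 ε0) :
    ¬ (u ^ k0 ≤ 2 ^ 85 ∧ (k0 < 8 → u ^ k0 ≤ 2 ^ 62)) ∧ ¬ (3 ≤ h ∧ 8 ≤ k0 ∧ u ^ k0 ≤ 2 ^ 105) := by
  have hn := N.n6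
  have hne := N.ne
  have hq3 := N.q3
  have hu1 := N.D.upos
  have hV : q * q ^ (n - 1) = q ^ n := by rw [← pow_succ']; congr 1; omega
  have hcP := N.D.cP hV
  obtain ⟨s, hs⟩ : ∃ s, s = q ^ (n / 2) := ⟨_, rfl⟩
  have hss : s * s = q ^ n := by
    rw [hs, ← pow_add]; congr 1; omega
  rw [← hss] at hcP
  have h729 : 729 ≤ s * s := by
    rw [hss]
    calc 729 = 3 ^ 6 := by norm_num
      _ ≤ q ^ 6 := Nat.pow_le_pow_left hq3 6
      _ ≤ q ^ n := Nat.pow_le_pow_right (by omega) hn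
  obtain ⟨f', hf', hvu⟩ := N.vu
  have hne' : s * s ≠ u ^ k0 := by
    rw [hss]
    intro h1
    apply N.vq
    apply N.vp.dvd_of_dvd_pow (n := n)
    rw [h1, hvu]
    exact dvd_pow (dvd_pow_self v (by omega)) (by have := N.k5; omega)
  have hc4 : c0 = 1 ∨ c0 = 2 ∨ c0 = 4 := by
    have h3 := Nat.le_of_dvd (by norm_num) N.c0d
    have h4 := N.c0d
    interval_cases c0 <;> omega
  have hcu : u % 2 = 0 → c0 = 1 := by
    intro h1
    apply N.c2
    have h2 : 2 ∣ v ^ f' := by rw [← hvu]; omega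
    exact ((Nat.prime_dvd_prime_iff_eq Nat.prime_two N.vp).1 (Nat.prime_two.dvd_of_dvd_pow h2)).symm
  have huw := N.uw
  constructor
  · rintro ⟨h1, h2⟩
    apply hne'
    have h3 := Sq.finB (F := F) (c := c0) (s := s) (ε0 := ε0) N.ho N.w2 N.k5 (by rw [← huw]; exact h1)
      (by rw [← huw]; exact h2) N.D.pm (by rw [← huw]; exact N.F1) hc4 (by rw [← huw]; exact hcu)
      (by rw [← huw]; exact hcP) h729
    rw [h3, huw]
  · rintro ⟨h1, h2, h3⟩
    apply hne'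
    have h4 := Sq.finB' (F := F) (c := c0) (s := s) (ε0 := ε0) N.ho h1 N.w2 h2 (by rw [← huw]; exact h3)
      N.D.pm (by rw [← huw]; exact N.F1) hc4 (by rw [← huw]; exact hcu)
      (by rw [← huw]; exact hcP) h729
    rw [h4, huw]

theorem NB.facts {w m : ℕ} (N : NB q n v u w h F c0 P0 m k0 ε0) :
    2 ≤ u ∧ 1 ≤ h ∧ 1 ≤ F ∧ F ≤ u + 1 ∧ 1 ≤ c0 ∧ c0 ≤ 4 ∧ q * q ^ (n - 1) = q ^ n ∧ q ^ 6 ≤ q ^ n ∧ ¬ v ∣ F ∧ v ∣ u ∧
      2 ^ h ≤ u := by
  obtain ⟨f', hf', hvu⟩ := N.vu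
  have hn := N.n6
  have hq3 := N.q3
  have hu2 : 2 ≤ u := by rw [hvu]; exact N.vp.two_le.trans (Nat.le_self_pow (by omega) v)
  have hvu' : v ∣ u := by rw [hvu]; exact dvd_pow_self v (by omega)
  refine ⟨hu2, N.ho.pos, ?_, ?_, ?_, Nat.le_of_dvd (by norm_num) N.c0d, by rw [← pow_succ']; congr 1; omega,
    Nat.pow_le_pow_right (by omega) hn, ?_, hvu', ?_⟩
  · rcases N.F1 with h | h | h <;> omega
  · rcases N.F1 with h | h | h <;> omega
  · exact Nat.pos_of_dvd_of_pos N.c0d (by norm_num)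
  · intro hd
    have h2 := N.vp.two_le
    rcases N.F1 with h | h | h
    · rw [h] at hd
      exact N.vp.one_lt.ne' (Nat.dvd_one.1 hd)
    · rw [h] at hd
      have h3 := Nat.dvd_sub hvu' hd
      rw [show u - (u - 1) = 1 by omega] at h3
      exact N.vp.one_lt.ne' (Nat.dvd_one.1 h3)
    · rw [h] at hd
      have h3 := (Nat.dvd_add_right hvu').1 hd
      exact N.vp.one_lt.ne' (Nat.dvd_one.1 h3)
  · rw [N.uw]
    exact Nat.pow_le_pow_left N.w2 h

theorem NB.bigP {w m : ℕ} (N : NB q n v u w h F c0 P0 m k0 ε0) :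
    u ^ k0 ≤ 2 * (q ^ n + 1) + 1 ∧ (3 ≤ h → u ^ k0 ≤ q ^ n) ∧ 2 ^ 61 ≤ q ^ n + 1 ∧ (8 ≤ k0 → 2 ^ 84 ≤ q ^ n + 1) := by
  obtain ⟨hu2, hh, hF, hFu, hc, hc4, hV, hq6, hvF, hvu, h2h⟩ := N.facts
  have hcP := N.D.cP hV
  have a2 := AN_ge N.D.pm k0 (by omega : 1 ≤ u)
  have h1 : u ^ k0 ≤ 2 * (q ^ n + 1) + 1 := by
    have e2 : 2 * AN ε0 k0 u ≤ 4 * (q ^ n + 1) := by
      calc 2 * AN ε0 k0 u ≤ 2 * h * F * AN ε0 k0 u := by
            refine Nat.mul_le_mul_right _ ?_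
            nlinarith
        _ = c0 * (q ^ n + 1) := hcP.symm
        _ ≤ 4 * (q ^ n + 1) := by gcongr
    omega
  have h729 : 729 ≤ q ^ n := by
    calc 729 = 3 ^ 6 := by norm_num
      _ ≤ q ^ 6 := Nat.pow_le_pow_left N.q3 6
      _ ≤ q ^ n := hq6
  refine ⟨h1, ?_, ?_, ?_⟩
  · intro h3
    have e2 : 6 * AN ε0 k0 u ≤ 4 * (q ^ n + 1) := by
      calc 6 * AN ε0 k0 u ≤ 2 * h * F * AN ε0 k0 u := by
            refine Nat.mul_le_mul_right _ ?_
            nlinarith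
        _ = c0 * (q ^ n + 1) := hcP.symm
        _ ≤ 4 * (q ^ n + 1) := by gcongr
    omega
  · have h2 := N.small.1
    by_contra hcon
    apply h2
    refine ⟨?_, fun _ => ?_⟩
    · calc u ^ k0 ≤ 2 ^ 62 := by omega
        _ ≤ _ := by norm_num
    · omega
  · intro h8
    have h2 := N.small.1
    by_contra hcon
    apply h2
    refine ⟨by omega, fun h9 => by omega⟩

/-- **The equality.** -/
theorem NB.eq {w m : ℕ} (N : NB q n v u w h F c0 P0 m k0 ε0) (hδ : δ = 1 ∨ δ = -1) (S : SgB q n u m k0 δ k ε) :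
    k ≤ k0 ∧ (2 * h * F * (ε0 * ε * (u : ℤ) ^ (k0 - k) - 1) = ε0 * c0 * (1 + δ * q)) := by
  obtain ⟨hu2, hh, hF, hFu, hc, hc4, hV, hq6, hvF, hvu, h2h⟩ := N.facts
  obtain ⟨b1, b2, b3, b4⟩ := N.bigP
  have hq3 := N.q3
  have hn := N.n6
  have hsq := sq_le_two_mul h2h N.ho
  have hcP := N.D.cP hV
  have hkm := S.le
  have hk0 := N.k0m
  have hu1 : 1 ≤ u := by omega
  rcases Nat.lt_or_ge k0 k with hlt | hle
  · exfalso
    have hk : k = k0 + 1 := by omega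
    obtain ⟨T, κ, c1, h1, h2, h3, h4, h5⟩ := S.top hk
    rw [hk] at h2
    rcases N.D.e3 S.ppm hδ (Dvd.intro _ h2) h5 h3 with h6 | h6
    · exact e3_ne N.vp hvu N.vh hvF N.qo N.ho hδ h6
    · exact N.D.e3_size hV (by omega) hq6 N.k5 hsq hh hF hFu hc hc4 (by omega) h4 S.ppm
        (Nat.le_of_dvd (by norm_num) h1) h2 h6
  · refine ⟨hle, ?_⟩
    obtain ⟨e, he⟩ : ∃ e, k0 = k + e := ⟨k0 - k, by omega⟩
    obtain ⟨T, κ, c1, h1, h2, h3, h4, h5⟩ := S.one hle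
    have hc1 := Nat.le_of_dvd two_pos h1
    have D' : Dat q (q ^ (n - 1)) h F c0 P0 u (k + e) ε0 := by rw [← he]; exact N.D
    rw [show k0 - k = e by omega]
    obtain ⟨G, hG⟩ : ∃ G, G = 2 * h * F * u ^ e := ⟨_, rfl⟩
    have hue := Nat.one_le_pow e u hu1
    have hHG : 2 * h * F ≤ G := by rw [hG]; exact Nat.le_mul_of_pos_right _ hue
    have g1 : G * u ^ k ≤ c0 * (q ^ n + 1) + G := by
      have a2 := AN_ge N.D.pm k0 hu1
      calc G * u ^ k = 2 * h * F * u ^ k0 := by rw [hG, he, pow_add]; ring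
        _ ≤ 2 * h * F * (AN ε0 k0 u + 1) := Nat.mul_le_mul_left _ a2
        _ = c0 * (q ^ n + 1) + 2 * h * F := by rw [hcP]; ring
        _ ≤ _ := Nat.add_le_add_left hHG _
    rcases (show n ≠ 10 ∨ n = 10 by omega) with hn10 | hn10
    swap
    · obtain ⟨R, r1, r2, r3⟩ := S.sc10 hn10
      rcases D'.e1 (κ := 1) S.ppm hδ r2 (by rw [Nat.cast_one, one_mul]; exact r3) le_rfl with h6 | h6
      · exact h6
      exfalso
      rw [one_mul] at h6
      subst hn10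
      have hq : 69 ≤ q := by
        by_contra hcon
        have h7 : q ^ 10 ≤ 68 ^ 10 := Nat.pow_le_pow_left (by omega) 10
        norm_num at h7 b3
        omega
      obtain ⟨n1, n2, n3⟩ := num10R hq
      have hRX : R ≤ u ^ k + 1 := by
        have hAN : 0 < AN ε k u := by
          have a3 := AN_ge S.ppm k hu1
          have hbig := S.big
          have hk5 := N.k5
          have : 2 ≤ u ^ k := le_trans hu2 (Nat.le_self_pow (by omega) u)
          omega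
        exact (Nat.le_of_dvd hAN r2).trans (AN_le S.ppm k u)
      have hRG : R ≤ 2 * G + c0 * (q + 1) := by
        refine h6.trans ?_
        rw [hG]
        calc 2 * h * F * (u ^ e + 1) + c0 * (q + 1) ≤ 2 * h * F * (u ^ e + u ^ e) + c0 * (q + 1) := by gcongr
          _ = _ := by ring
      have := size_R g1 hRX r1 hRG n1 n2 hc4
      omega
    rcases D'.e1 S.ppm hδ (Dvd.intro _ h2) h5 h3 with h6 | h6
    · exact h6
    exfalso
    have g2 : c0 * (q ^ n + 1) ≤ G * (u ^ k + 1) := by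
      have a2 := AN_le N.D.pm k0 u
      calc c0 * (q ^ n + 1) = 2 * h * F * AN ε0 k0 u := hcP
        _ ≤ 2 * h * F * (u ^ k0 + 1) := Nat.mul_le_mul_left _ a2
        _ = G * u ^ k + 2 * h * F := by rw [hG, he, pow_add]; ring
        _ ≤ G * u ^ k + G := Nat.add_le_add_left hHG _
        _ = _ := by ring
    have g3 : u ^ k ≤ 1 + 2 * ((q + 1) * (2 * G + c0 * (q + 1))) := by
      have a3 := AN_ge S.ppm k hu1
      calc u ^ k ≤ AN ε k u + 1 := a3
        _ = 1 + c1 * T := by rw [← h2]; ring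
        _ ≤ 1 + 2 * ((q + 1) * (2 * h * F * (u ^ e + 1) + c0 * (q + 1))) := by
          gcongr
          exact h6.trans (Nat.mul_le_mul_right _ h4)
        _ ≤ 1 + 2 * ((q + 1) * (2 * h * F * (u ^ e + u ^ e) + c0 * (q + 1))) := by gcongr
        _ = _ := by rw [hG]; ring
    rcases Nat.lt_or_ge n 12 with hn12 | hn12
    · have hn3 : n = 6 ∨ n = 8 := by
        have := N.ne
        omega
      rcases hn3 with rfl | rfl
      · have hq : 1149 ≤ q := by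
          by_contra hcon
          have h7 : q ^ 6 ≤ 1148 ^ 6 := Nat.pow_le_pow_left (by omega) 6
          norm_num at h7 b3
          omega
        obtain ⟨n1, n2, n3⟩ := num6 hq
        have := size_one_B g1 g2 g3 (S.sc6 rfl) n1 n2 hc hc4 le_rfl
        omega
      · have hq : 197 ≤ q := by
          by_contra hcon
          have h7 : q ^ 8 ≤ 196 ^ 8 := Nat.pow_le_pow_left (by omega) 8
          norm_num at h7 b3
          omega
        obtain ⟨n1, n2, n3⟩ := num8 hq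
        have := size_one_B g1 g2 g3 (S.sc8 rfl) n1 n2 hc hc4 le_rfl
        omega
    · have hm := N.m11 hn12
      have hbig := S.big
      have hu10 : u ^ 10 ≤ 3 * q ^ n := by
        have : u ^ 10 ≤ u ^ k0 := Nat.pow_le_pow_right hu1 (by omega)
        omega
      have hGB : G ≤ 256 * (q + 1) * (h * (u + 1)) ^ 2 := by
        have gg : ∀ Z, Z ≤ 2 * (h * (u + 1)) → Z ≤ 256 * (q + 1) * (h * (u + 1)) ^ 2 := by
          intro Z hZ
          refine hZ.trans ?_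
          have : 1 ≤ h * (u + 1) := Nat.mul_pos hh (by omega)
          calc 2 * (h * (u + 1)) ≤ 256 * (q + 1) * (h * (u + 1)) := Nat.mul_le_mul_right _ (by omega)
            _ ≤ _ := Nat.mul_le_mul_left _ (Nat.le_self_pow two_ne_zero _)
        rcases Nat.lt_or_ge k (m - 1) with hkm1 | hkm1
        · obtain ⟨b, hb⟩ : ∃ b, k + b + 1 = m := ⟨m - 1 - k, by omega⟩
          obtain ⟨r, hr⟩ : ∃ r, k0 = k + b + r := ⟨k0 - (k + b), by omega⟩
          obtain ⟨ε', hε', hg⟩ := gcd_two (k := k) (b := b) (u := u) S.ppm (by omega) (by omega) hu1 S.odd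
          obtain ⟨T2, κ2, c2, p1, p2, p3, p4, p5⟩ := S.two b ε' hε' (by omega) hb
          have D2 : Dat q (q ^ (n - 1)) h F c0 P0 u (k + b + r) ε0 := by rw [← hr]; exact N.D
          have h7 := D2.e2_size hV hq3 (Nat.pow_le_pow_right (by omega) hn12) (by omega) (by omega) (by omega) hu2 hc4 hc
            hh hF S.ppm hε' hδ p3 p4 p5 p1 p2 hg
          have hFr : F * u ^ r ≤ u + 1 := by
            rcases hk0 with ⟨h8, h9⟩ | h8
            · have : r = 1 := by omega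
              rw [this, h9, pow_one]
              omega
            · have : r = 0 := by omega
              rw [this, pow_zero, mul_one]
              exact hFu
          have her : e = b + r := by omega
          calc G = 2 * h * F * u ^ r * u ^ b := by rw [hG, her, pow_add]; ring
            _ ≤ 2 * h * F * u ^ r * (64 * (q + 1) * (2 * h * F * u ^ r)) := Nat.mul_le_mul_left _ h7
            _ = 256 * (q + 1) * (h * (F * u ^ r)) ^ 2 := by ring
            _ ≤ 256 * (q + 1) * (h * (u + 1)) ^ 2 := by gcongr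
        · apply gg
          rw [hG]
          rcases hk0 with ⟨h8, h9⟩ | h8
          · rw [h9]
            calc 2 * h * 1 * u ^ e ≤ 2 * h * 1 * u ^ 1 :=
                  Nat.mul_le_mul_left _ (Nat.pow_le_pow_right hu1 (by omega))
              _ ≤ _ := by rw [pow_one]; nlinarith
          · have : e = 0 := by omega
            rw [this, pow_zero]
            calc 2 * h * F * 1 = 2 * (h * F) := by ring
              _ ≤ _ := by gcongr
      have h8 := size_two_B g2 g3 hGB hc4 hc hq3 hh hu2 hn12 rfl hu10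
      rcases fin_two_B h8 h2h hu10 N.ho with ⟨h9, h10⟩ | ⟨h9, h10⟩
      · apply N.small.1
        refine ⟨?_, fun h => by omega⟩
        calc u ^ k0 ≤ 2 * (q ^ n + 1) + 1 := b1
          _ ≤ 2 ^ 85 := by norm_num at h10 ⊢; omega
      · apply N.small.2
        refine ⟨h9, by omega, ?_⟩
        calc u ^ k0 ≤ q ^ n := b2 h9
          _ ≤ 2 ^ 105 := by norm_num at h10 ⊢; omega

/-- **The contradiction.** -/
theorem NB.false {w m k' : ℕ} {ε' : ℤ} (N : NB q n v u w h F c0 P0 m k0 ε0) (S1 : SgB q n u m k0 1 k ε)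
    (S2 : SgB q n u m k0 (-1) k' ε') : False := by
  obtain ⟨hu2, hh, hF, hFu, hc, hc4, hV, hq6, hvF, hvu, h2h⟩ := N.facts
  obtain ⟨f', hf', hvu'⟩ := N.vu
  obtain ⟨h1, h2⟩ := N.eq (Or.inl rfl) S1
  obtain ⟨h3, h4⟩ := N.eq (Or.inr rfl) S2
  refine N.D.zero_all (n := n) (Nat.even_iff.2 N.ne) N.n6 hV N.vp hvu' hf' N.vq (by have := N.k5; omega) N.qo N.q3 N.ho
    (fun hv2 => ?_) hF N.c0d N.c2 N.F1 (pm_mul N.D.pm S1.ppm) (pm_mul N.D.pm S2.ppm) h2 h4
  rw [← Nat.not_even_iff_odd, even_iff_two_dvd, ← hv2]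
  exact hvF

end

end Cfsg.Agent.R2.Spec.X5
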