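import Cfsg.Agent.R2.Spec.X5.Core

/-!
# S3435, box X5 (helper12): the primitive parts of `q ^ 5 ∓ 1`, `q ^ 7 ∓ 1`, `q ^ 9 ∓ 1`
-/

set_option autoImplicit false

namespace Cfsg.Agent.R2.Spec.X5

open Cfsg.Agent.R2.Spec.P1.Eig

/-- the primitive part -/
theorem prim_z {s : ℕ} (hs : s.Prime) {z Φ : ℤ} (h1 : (z - 1) * Φ = z ^ s - 1) (h2 : ∃ B, Φ = s + (z - 1) * B)
    (h3 : (s : ℤ) ∣ z - 1 → ∃ c, Φ = s + s ^ 2 * c) :
    ∃ R : ℤ, (R = Φ ∨ Φ = s * R) ∧ ∀ r : ℕ, r.Prime → (r : ℤ) ∣ R → (z : ZMod r) ^ s = 1 ∧ (z : ZMod r) ≠ 1 := by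
  have hs0 : (s : ℤ) ≠ 0 := by exact_mod_cast hs.ne_zero
  have key : ∀ R : ℤ, R ∣ Φ → ¬ (s : ℤ) ∣ R → ∀ r : ℕ, r.Prime → (r : ℤ) ∣ R →
      (z : ZMod r) ^ s = 1 ∧ (z : ZMod r) ≠ 1 := by
    intro R hR hsR r hr hrR
    have hrΦ := hrR.trans hR
    constructor
    · have h4 : (r : ℤ) ∣ z ^ s - 1 := by rw [← h1]; exact hrΦ.mul_left _
      have h5 := (ZMod.intCast_zmod_eq_zero_iff_dvd _ _).2 h4
      push_cast at h5
      linear_combination h5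
    · intro h4
      obtain ⟨B, hB⟩ := h2
      have h5 : (r : ℤ) ∣ z - 1 := by
        rw [← ZMod.intCast_zmod_eq_zero_iff_dvd]
        push_cast
        rw [h4, sub_self]
      have h6 : (r : ℤ) ∣ s := by
        have h7 : (s : ℤ) = Φ - (z - 1) * B := by rw [hB]; ring
        rw [h7]
        exact dvd_sub hrΦ (h5.mul_right _)
      have h7 : r = s := (Nat.prime_dvd_prime_iff_eq hr hs).1 (by exact_mod_cast h6)
      exact hsR (by rw [← h7]; exact hrR)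
  by_cases hc : (s : ℤ) ∣ z - 1
  · obtain ⟨c, hc'⟩ := h3 hc
    refine ⟨1 + s * c, Or.inr (by rw [hc']; ring), key _ ⟨s, by rw [hc']; ring⟩ ?_⟩
    intro hd
    have h4 : (s : ℤ) ∣ 1 := by
      have := dvd_sub hd (Dvd.intro c rfl : (s : ℤ) ∣ s * c)
      rwa [add_sub_cancel_right] at this
    exact (Nat.prime_iff_prime_int.1 hs).not_isUnit (isUnit_of_dvd_one h4)
  · refine ⟨Φ, Or.inl rfl, key _ dvd_rfl ?_⟩
    intro hd
    apply hc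
    have hf := Fact.mk hs
    have h4 : (s : ℤ) ∣ z ^ s - 1 := by rw [← h1]; exact hd.mul_left _
    have h5 := (ZMod.intCast_zmod_eq_zero_iff_dvd _ _).2 h4
    push_cast at h5
    rw [ZMod.pow_card] at h5
    rw [← ZMod.intCast_zmod_eq_zero_iff_dvd]
    push_cast
    exact h5

theorem order_s {s r : ℕ} (hs : s.Prime) {z : ZMod r} (h : z ^ s = 1 ∧ z ≠ 1) : orderOf z = s := by
  have hf := Fact.mk hs
  exact orderOf_eq_prime h.1 h.2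

theorem order_neg {r ℓ : ℕ} (hr : r.Prime) (hr2 : r ≠ 2) {q : ℕ} (hl : Odd ℓ) (h : orderOf (-(q : ZMod r)) = ℓ) :
    orderOf (q : ZMod r) = 2 * ℓ := by
  have hf := Fact.mk hr
  have h1 : (q : ZMod r) = (-1) * (-(q : ZMod r)) := by ring
  have h2 : orderOf (-1 : ZMod r) = 2 := by
    rw [orderOf_neg_one, ZMod.ringChar_zmod_n, if_neg hr2]
  rw [h1, (Commute.all _ _).orderOf_mul_eq_mul_orderOf_of_coprime, h2, h]
  rw [h2, h]
  exact Nat.coprime_two_left.2 hl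

/-- from the integer `R` to the natural number -/
theorem prim_nat {q n : ℕ} {δ : ℤ} (hδ : δ = 1 ∨ δ = -1) (hq : 3 ≤ q) (hqo : Odd q) {ℓ : ℕ} (hl : Odd ℓ) {Φ : ℤ} {s : ℕ}
    {ρ : ℕ} (hs : s.Prime) (hΦ : Odd Φ) (hd : Φ ∣ (δ * q) ^ ℓ - 1) (hρ : s * (ρ : ℤ) ≤ n * Φ) (hn : 1 ≤ n)
    (hR : ∃ R : ℤ, (R = Φ ∨ Φ = s * R) ∧ ∀ r : ℕ, r.Prime → (r : ℤ) ∣ R → orderOf (((δ * q : ℤ)) : ZMod r) = ℓ) :
    ∃ R : ℕ, Odd R ∧ ρ ≤ n * R ∧ R ∣ AN δ ℓ q ∧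
      ∀ r : ℕ, r.Prime → r ∣ R → orderOf (q : ZMod r) = if δ = 1 then ℓ else 2 * ℓ := by
  obtain ⟨R, hR1, hR2⟩ := hR
  have hRΦ : R ∣ Φ := by
    rcases hR1 with h | h
    · rw [h]
    · rw [h]; exact Dvd.intro_left _ rfl
  have ho : Odd R.natAbs := by
    rw [Int.natAbs_odd]
    obtain ⟨c, hc⟩ := hRΦ
    rw [hc] at hΦ
    exact (Int.odd_mul.1 hΦ).1
  have hΦ0 : 0 ≤ Φ := by
    have : (0 : ℤ) ≤ s * ρ := by positivity
    have h5 : (0 : ℤ) ≤ n * Φ := this.trans hρ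
    have h6 : (0 : ℤ) < n := by exact_mod_cast hn
    by_contra hcon
    push Not at hcon
    nlinarith
  have hRs : Φ ≤ s * (R.natAbs : ℤ) := by
    have h5 : R ≤ (R.natAbs : ℤ) := Int.le_natAbs
    have h6 : (1 : ℤ) ≤ s := by exact_mod_cast hs.one_lt.le
    rcases hR1 with h | h
    · rw [← h]
      nlinarith [Int.natCast_nonneg R.natAbs]
    · rw [h]
      nlinarith
  refine ⟨R.natAbs, ho, ?_, ?_, ?_⟩
  · have h5 : (s : ℤ) * ρ ≤ s * (n * R.natAbs) := by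
      have h6 : (0 : ℤ) ≤ n := by positivity
      calc (s : ℤ) * ρ ≤ n * Φ := hρ
        _ ≤ n * (s * (R.natAbs : ℤ)) := mul_le_mul_of_nonneg_left hRs h6
        _ = _ := by ring
    have h6 : (0 : ℤ) < s := by exact_mod_cast hs.pos
    have h7 := le_of_mul_le_mul_left h5 h6
    exact_mod_cast h7
  · have h5 : (R.natAbs : ℤ) ∣ (q : ℤ) ^ ℓ - δ := by
      rw [Int.natAbs_dvd]
      refine (hRΦ.trans hd).trans ?_
      rcases hδ with rfl | rfl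
      · rw [one_mul]
      · rw [show (-1 * (q : ℤ)) ^ ℓ - 1 = -((q : ℤ) ^ ℓ - (-1)) by
          rw [mul_pow, hl.neg_one_pow]; ring]
        exact (neg_dvd.2 dvd_rfl)
    rw [← AN_int hδ (by omega)] at h5
    exact_mod_cast h5
  · intro r hr hrR
    have h5 := hR2 r hr (by rw [← Int.dvd_natAbs]; exact_mod_cast hrR)
    have hr2 : r ≠ 2 := by
      rintro rfl
      have := ho
      rw [← Nat.not_even_iff_odd, even_iff_two_dvd] at this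
      exact this hrR
    rcases hδ with rfl | rfl
    · rw [if_pos rfl]
      push_cast at h5
      rw [one_mul] at h5
      exact h5
    · rw [if_neg (by norm_num)]
      push_cast at h5
      exact order_neg hr hr2 hl (by rw [← h5]; congr 1; ring)

/-- **`q ^ 5 - δ`.** -/
theorem exists_R5 {q : ℕ} {δ : ℤ} (hδ : δ = 1 ∨ δ = -1) (hq : 3 ≤ q) (hqo : Odd q) :
    ∃ R : ℕ, Odd R ∧ 2 * q ^ 4 ≤ 15 * R ∧ R ∣ AN δ 5 q ∧
      ∀ r : ℕ, r.Prime → r ∣ R → orderOf (q : ZMod r) = if δ = 1 then 5 else 2 * 5 := by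
  obtain ⟨y, hy⟩ : ∃ y : ℤ, y = δ * q := ⟨_, rfl⟩
  have hyo : Odd y := by
    rw [hy]
    refine Int.odd_mul.2 ⟨?_, by exact_mod_cast hqo⟩
    rcases hδ with rfl | rfl
    · exact odd_one
    · exact odd_neg_one
  obtain ⟨a, ha⟩ := hyo
  refine prim_nat (Φ := y ^ 4 + y ^ 3 + y ^ 2 + y + 1) (s := 5) hδ hq hqo (by decide) (by norm_num) ?_ ?_ ?_ (by norm_num) ?_
  · rw [ha]
    refine ⟨8 * a ^ 4 + 20 * a ^ 3 + 20 * a ^ 2 + 10 * a + 2, by ring⟩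
  · rw [← hy]
    exact ⟨y - 1, by ring⟩
  · rw [hy]
    have hq3 : (3 : ℤ) ≤ q := by exact_mod_cast hq
    push_cast
    rcases hδ with rfl | rfl
    · nlinarith [pow_pos (show (0 : ℤ) < q by linarith) 3, pow_pos (show (0 : ℤ) < q by linarith) 4,
        pow_pos (show (0 : ℤ) < q by linarith) 2]
    · have h1 : (q : ℤ) ^ 4 ≥ 3 * q ^ 3 := by
        have : (0 : ℤ) ≤ q ^ 3 := by positivity
        nlinarith
      nlinarith [sq_nonneg ((q : ℤ) - 1)]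
  · obtain ⟨R, hR1, hR2⟩ := prim_z (s := 5) (by norm_num) (z := y) (Φ := y ^ 4 + y ^ 3 + y ^ 2 + y + 1) (by ring)
      ⟨y ^ 3 + 2 * y ^ 2 + 3 * y + 4, by push_cast; ring⟩ (by
        rintro ⟨x, hx⟩
        have : y = 1 + 5 * x := by push_cast at hx; linarith
        exact ⟨2 * x + 10 * x ^ 2 + 25 * x ^ 3 + 25 * x ^ 4, by rw [this]; push_cast; ring⟩)
    refine ⟨R, hR1, fun r hr hd => ?_⟩
    rw [← hy]
    exact order_s (by norm_num) (hR2 r hr hd)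

/-- **`q ^ 7 - δ`.** -/
theorem exists_R7 {q : ℕ} {δ : ℤ} (hδ : δ = 1 ∨ δ = -1) (hq : 3 ≤ q) (hqo : Odd q) :
    ∃ R : ℕ, Odd R ∧ 2 * q ^ 6 ≤ 21 * R ∧ R ∣ AN δ 7 q ∧
      ∀ r : ℕ, r.Prime → r ∣ R → orderOf (q : ZMod r) = if δ = 1 then 7 else 2 * 7 := by
  obtain ⟨y, hy⟩ : ∃ y : ℤ, y = δ * q := ⟨_, rfl⟩
  have hyo : Odd y := by
    rw [hy]
    refine Int.odd_mul.2 ⟨?_, by exact_mod_cast hqo⟩
    rcases hδ with rfl | rfl
    · exact odd_one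
    · exact odd_neg_one
  refine prim_nat (Φ := y ^ 6 + y ^ 5 + y ^ 4 + y ^ 3 + y ^ 2 + y + 1) (s := 7) hδ hq hqo (by decide) (by norm_num) ?_ ?_
    ?_ (by norm_num) ?_
  · have h6 : Even (y * (y + 1)) := Int.even_mul_succ_self y
    have : y ^ 6 + y ^ 5 + y ^ 4 + y ^ 3 + y ^ 2 + y + 1 = (y * (y + 1)) * (y ^ 4 + y ^ 2 + 1) + 1 := by ring
    rw [this]
    exact (h6.mul_right _).add_one
  · rw [← hy]
    exact ⟨y - 1, by ring⟩
  · rw [hy]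
    have hq3 : (3 : ℤ) ≤ q := by exact_mod_cast hq
    push_cast
    rcases hδ with rfl | rfl
    · rw [one_mul]
      have h1 : (0 : ℤ) ≤ q ^ 6 := by positivity
      have h2 : (0 : ℤ) ≤ q ^ 5 := by positivity
      have h3 : (0 : ℤ) ≤ q ^ 4 := by positivity
      have h4 : (0 : ℤ) ≤ q ^ 3 := by positivity
      have h5 : (0 : ℤ) ≤ q ^ 2 := by positivity
      linarith
    · have h1 : (q : ℤ) ^ 6 ≥ 3 * q ^ 5 := by
        have : (0 : ℤ) ≤ q ^ 5 := by positivity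
        nlinarith
      have h2 : (q : ℤ) ^ 4 ≥ 3 * q ^ 3 := by
        have : (0 : ℤ) ≤ q ^ 3 := by positivity
        nlinarith
      have h3 : (0 : ℤ) ≤ q ^ 3 := by positivity
      have h4 : (q : ℤ) ≤ q ^ 2 := by nlinarith
      have e : (-1 * (q : ℤ)) ^ 6 + (-1 * (q : ℤ)) ^ 5 + (-1 * (q : ℤ)) ^ 4 + (-1 * (q : ℤ)) ^ 3 + (-1 * (q : ℤ)) ^ 2 +
        (-1 * (q : ℤ)) + 1 = q ^ 6 - q ^ 5 + q ^ 4 - q ^ 3 + q ^ 2 - q + 1 := by ring
      rw [e]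
      linarith
  · obtain ⟨R, hR1, hR2⟩ := prim_z (s := 7) (by norm_num) (z := y)
      (Φ := y ^ 6 + y ^ 5 + y ^ 4 + y ^ 3 + y ^ 2 + y + 1) (by ring)
      ⟨y ^ 5 + 2 * y ^ 4 + 3 * y ^ 3 + 4 * y ^ 2 + 5 * y + 6, by push_cast; ring⟩ (by
        rintro ⟨x, hx⟩
        have : y = 1 + 7 * x := by push_cast at hx; linarith
        exact ⟨3 * x + 35 * x ^ 2 + 245 * x ^ 3 + 1029 * x ^ 4 + 2401 * x ^ 5 + 2401 * x ^ 6, by
          rw [this]; push_cast; ring⟩)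
    refine ⟨R, hR1, fun r hr hd => ?_⟩
    rw [← hy]
    exact order_s (by norm_num) (hR2 r hr hd)

/-- **`q ^ 9 - δ`.** -/
theorem exists_R9 {q : ℕ} {δ : ℤ} (hδ : δ = 1 ∨ δ = -1) (hq : 3 ≤ q) (hqo : Odd q) :
    ∃ R : ℕ, Odd R ∧ q ^ 6 ≤ 4 * R ∧ R ∣ AN δ 9 q ∧
      ∀ r : ℕ, r.Prime → r ∣ R → orderOf (q : ZMod r) = if δ = 1 then 9 else 2 * 9 := by
  obtain ⟨y, hy⟩ : ∃ y : ℤ, y = δ * q := ⟨_, rfl⟩
  refine prim_nat (Φ := y ^ 6 + y ^ 3 + 1) (s := 3) hδ hq hqo (by decide) (by norm_num) ?_ ?_ ?_ (by norm_num) ?_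
  · have h6 : Even (y ^ 3 * (y ^ 3 + 1)) := Int.even_mul_succ_self _
    have : y ^ 6 + y ^ 3 + 1 = (y ^ 3 * (y ^ 3 + 1)) + 1 := by ring
    rw [this]
    exact h6.add_one
  · rw [← hy]
    exact ⟨y ^ 3 - 1, by ring⟩
  · rw [hy]
    have hq3 : (3 : ℤ) ≤ q := by exact_mod_cast hq
    push_cast
    have h2 : (0 : ℤ) ≤ q ^ 3 := by positivity
    have h27 : (27 : ℤ) ≤ q ^ 3 := by
      calc (27 : ℤ) = 3 ^ 3 := by norm_num
        _ ≤ q ^ 3 := by gcongr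
    rcases hδ with rfl | rfl
    · nlinarith
    · nlinarith
  · obtain ⟨R, hR1, hR2⟩ := prim_z (s := 3) (by norm_num) (z := y ^ 3) (Φ := y ^ 6 + y ^ 3 + 1) (by ring)
      ⟨y ^ 3 + 2, by push_cast; ring⟩ (by
        rintro ⟨x, hx⟩
        have : y ^ 3 = 1 + 3 * x := by push_cast at hx; linarith
        have h6 : y ^ 6 = (1 + 3 * x) ^ 2 := by rw [← this]; ring
        exact ⟨x + x ^ 2, by rw [h6, this]; push_cast; ring⟩)
    refine ⟨R, hR1, fun r hr hd => ?_⟩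
    rw [← hy]
    obtain ⟨h1, h2⟩ := hR2 r hr hd
    push_cast at h1 h2
    have h3 : orderOf ((y : ℤ) : ZMod r) = 3 ^ (1 + 1) := by
      have hf : Fact (Nat.Prime 3) := ⟨by norm_num⟩
      apply orderOf_eq_prime_pow
      · rw [pow_one]; exact h2
      · rw [show 3 ^ (1 + 1) = 3 * 3 by norm_num, pow_mul]; exact h1
    rw [h3]
    norm_num

end Cfsg.Agent.R2.Spec.X5
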