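import Mathlib

/-!
# S3435, box X5 (helper12): a test for squares
-/

set_option autoImplicit false

namespace Cfsg.Agent.R2.Spec.X5.Sq

/-- moduli and masks of the squares -/
def L : List (ℕ × ℕ) := [
  (8, 19),
  (63, 288872697407275667),
  (65, 20863489977805260307),
  (11, 571),
  (17, 107287),
  (19, 199411),
  (23, 340831),
  (29, 332473075),
  (31, 303908791),
  (37, 96068509339),
  (41, 1870503675703),
  (43, 3678700564051),
  (47, 4626135339999),
  (53, 5310023542746835),
  (59, 156326468341437115),
  (61, 1662926210933060155),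
  (67, 61808106872519771731),
  (71, 20052041432995567487),
  (73, 9059857384996697084767),
  (79, 89932533647391829339959)]

/-- `true` only if `N` is not a square -/
def ns (N : ℕ) : Bool := L.any fun p => !(p.2.testBit (N % p.1))

theorem L_ok : ∀ p ∈ L, ∀ r < p.1, p.2.testBit ((r * r) % p.1) = true := by decide +kernel

theorem L_pos : ∀ p ∈ L, 0 < p.1 := by decide +kernel

theorem ns_sq (s : ℕ) : ns (s * s) = false := by
  rw [ns, List.any_eq_false]
  intro p hp
  rw [Nat.mul_mod]
  have h := L_ok p hp (s % p.1) (Nat.mod_lt _ (L_pos p hp))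
  simpa using h

theorem ns_ne {N : ℕ} (h : ns N = true) (s : ℕ) : s * s ≠ N := by
  rintro rfl
  rw [ns_sq] at h
  exact Bool.noConfusion h

end Cfsg.Agent.R2.Spec.X5.Sq
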