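import Cfsg.Agent.R2.Spec.X5.SizeE3

/-!
# S3435, box X5 (helper12): `v ∣ (q ^ n + 1) / 2`: the numbers
-/

set_option autoImplicit false

namespace Cfsg.Agent.R2.Spec.X5

open Cfsg.Agent.R2.Spec.P1.Eig

section

variable {q n u m h0 N κ : ℕ} {ε δ : ℤ}

/-- `N ∣ κ Z` -/
theorem vnum_dvd (hn : 1 ≤ n) (hm : 1 ≤ m) (hu : 1 ≤ u) (hq : 1 ≤ q) (hε : ε = 1 ∨ ε = -1)
    (heq : h0 * (u ^ m + 1) = q ^ n + 1) (h1 : N ∣ AN ε (m - 1) u) (h2 : (N : ℤ) ∣ κ * ((q ^ (n - 1) : ℕ) - δ)) :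
    (N : ℤ) ∣ κ * (h0 * (ε * u + 1) - (1 + δ * q)) := by
  have h3 : (N : ℤ) ∣ (u : ℤ) ^ (m - 1) - ε := by
    rw [← AN_int hε hu]
    exact_mod_cast h1
  have h4 : (h0 : ℤ) * ((u : ℤ) ^ m + 1) = (q : ℤ) ^ n + 1 := by exact_mod_cast heq
  have hum : (u : ℤ) ^ m = u * (u : ℤ) ^ (m - 1) := by rw [← pow_succ']; congr 1; omega
  have hqn : (q : ℤ) ^ n = q * (q : ℤ) ^ (n - 1) := by rw [← pow_succ']; congr 1; omega
  have h5 : (κ : ℤ) * (h0 * (ε * u + 1) - (1 + δ * q)) =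
      q * (κ * (((q ^ (n - 1) : ℕ) : ℤ) - δ)) - (κ * h0 * u) * ((u : ℤ) ^ (m - 1) - ε) := by
    rw [hum, hqn] at h4
    push_cast
    linear_combination (κ : ℤ) * h4
  rw [h5]
  exact dvd_sub (h2.mul_left _) (h3.mul_left _)

theorem vnum_le (hn : 1 ≤ n) (hm : 1 ≤ m) (hu : 1 ≤ u) (hq : 1 ≤ q) (hε : ε = 1 ∨ ε = -1) (hδ : δ = 1 ∨ δ = -1)
    (heq : h0 * (u ^ m + 1) = q ^ n + 1) (h1 : N ∣ AN ε (m - 1) u) (h2 : (N : ℤ) ∣ κ * ((q ^ (n - 1) : ℕ) - δ))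
    (hκ : 1 ≤ κ) (hZ : (h0 * (ε * u + 1) - (1 + δ * q) : ℤ) ≠ 0) : N ≤ κ * (h0 * (u + 1) + (q + 1)) := by
  have hB : |(h0 * (ε * u + 1) - (1 + δ * q) : ℤ)| ≤ ((h0 * (u + 1) + (q + 1) : ℕ) : ℤ) := by
    have e1 : |(ε * u + 1 : ℤ)| ≤ u + 1 := by
      rcases hε with h | h <;> rw [h] <;> refine abs_le.2 ⟨?_, ?_⟩ <;> push_cast <;> linarith [Int.natCast_nonneg u]
    have e2 : |(1 + δ * (q : ℤ))| ≤ q + 1 := by
      rcases hδ with h | h <;> rw [h] <;> refine abs_le.2 ⟨?_, ?_⟩ <;> push_cast <;> linarith [Int.natCast_nonneg q]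
    refine (abs_sub _ _).trans ?_
    rw [abs_mul, Nat.abs_cast]
    push_cast
    gcongr
  rcases eq_zero_of_lt (vnum_dvd hn hm hu hq hε heq h1 h2) hκ hB with h3 | h3
  · exact absurd h3 hZ
  · exact h3

end

/-- the data -/
structure VD (q n u m h0 : ℕ) : Prop where
  n4 : n % 4 = 2
  n6 : 6 ≤ n
  q3 : 3 ≤ q
  qo : q % 2 = 1
  u5 : 5 ≤ u
  m6 : 6 ≤ m
  h5 : 5 ≤ h0
  eq : h0 * (u ^ m + 1) = q ^ n + 1
  m12 : 14 ≤ n → 12 ≤ m
  hb : ∃ f', f' ^ 2 ≤ u ∧ h0 ≤ (q ^ 2 + 1) * (n / 2) * f'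

structure VS (q n u m : ℕ) (ε δ : ℤ) : Prop where
  pm : ε = 1 ∨ ε = -1
  T : ∃ κ : ℕ, 1 ≤ κ ∧ κ ≤ q + 1 ∧ ((AN ε (m - 1) u : ℕ) : ℤ) ∣ κ * ((q ^ (n - 1) : ℕ) - δ)
  R6 : n = 6 → ∃ R : ℕ, 2 * q ^ 4 ≤ 15 * R ∧ R ∣ AN ε (m - 1) u ∧ (R : ℤ) ∣ ((q ^ (n - 1) : ℕ) - δ)
  R10 : n = 10 → ∃ R : ℕ, q ^ 6 ≤ 4 * R ∧ R ∣ AN ε (m - 1) u ∧ (R : ℤ) ∣ ((q ^ (n - 1) : ℕ) - δ)

theorem pow_big {n : ℕ} (hn : 14 ≤ n) (h4 : n % 4 = 2) : 16 * n ^ 8 < 3 ^ (3 * n - 20) := by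
  obtain ⟨k, rfl⟩ : ∃ k, n = 14 + 4 * k := ⟨(n - 14) / 4, by omega⟩
  clear hn h4
  induction k with
  | zero => norm_num
  | succ k ih =>
    have e1 : 3 * (14 + 4 * (k + 1)) - 20 = (3 * (14 + 4 * k) - 20) + 12 := by omega
    rw [e1, pow_add]
    have e2 : (14 + 4 * (k + 1)) ^ 8 ≤ (2 * (14 + 4 * k)) ^ 8 := Nat.pow_le_pow_left (by omega) 8
    calc 16 * (14 + 4 * (k + 1)) ^ 8 ≤ 16 * (2 * (14 + 4 * k)) ^ 8 := Nat.mul_le_mul_left _ e2
      _ = (16 * (14 + 4 * k) ^ 8) * 256 := by rw [mul_pow]; ring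
      _ < 3 ^ (3 * (14 + 4 * k) - 20) * 3 ^ 12 := by
        refine Nat.mul_lt_mul_of_lt_of_le ih (by norm_num) (by norm_num)

section

variable {q n u m h0 : ℕ} {ε δ : ℤ}

/-- `R` -/
theorem VD.R_le (D : VD q n u m h0) {ε : ℤ} (hε : ε = 1 ∨ ε = -1) {R : ℕ} (h1 : R ∣ AN ε (m - 1) u)
    (h2 : R ≤ h0 * (u + 1) + (q + 1)) : 5 * ((R - 1) * (R - (q + 1))) ≤ 6 * q ^ n := by
  have hu := D.u5
  have hm := D.m6
  have hh := D.h5
  have hAN : 0 < AN ε (m - 1) u := by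
    have a := AN_ge hε (m - 1) (by omega : 1 ≤ u)
    have : 2 ≤ u ^ (m - 1) := le_trans (by omega) (Nat.le_self_pow (by omega) u)
    omega
  have h3 := (Nat.le_of_dvd hAN h1).trans (AN_le hε (m - 1) u)
  have h4 : (R - 1) * (h0 * u) ≤ q ^ n := by
    calc (R - 1) * (h0 * u) ≤ u ^ (m - 1) * (h0 * u) := Nat.mul_le_mul_right _ (by omega)
      _ = h0 * u ^ m := by
        have : u ^ m = u ^ (m - 1) * u := by rw [← pow_succ]; congr 1; omega
        rw [this]; ring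
      _ ≤ q ^ n := by
        have := D.eq
        rw [mul_add] at this
        omega
  calc 5 * ((R - 1) * (R - (q + 1))) ≤ 5 * ((R - 1) * (h0 * (u + 1))) :=
        Nat.mul_le_mul_left _ (Nat.mul_le_mul_left _ (by omega))
    _ = (R - 1) * (h0 * (5 * (u + 1))) := by ring
    _ ≤ (R - 1) * (h0 * (6 * u)) := Nat.mul_le_mul_left _ (Nat.mul_le_mul_left _ (by omega))
    _ = 6 * ((R - 1) * (h0 * u)) := by ring
    _ ≤ _ := Nat.mul_le_mul_left _ h4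

/-- **One nonzero relation is impossible.** -/
theorem VD.ne (D : VD q n u m h0) (hδ : δ = 1 ∨ δ = -1) (S : VS q n u m ε δ)
    (hZ : (h0 * (ε * u + 1) - (1 + δ * q) : ℤ) ≠ 0) : False := by
  have hu := D.u5
  have hm := D.m6
  have hh := D.h5
  have hq3 := D.q3
  have hqo := D.qo
  have hn6 := D.n6
  have hn4 := D.n4
  have heq := D.eq
  have hup : 5 ^ 6 ≤ u ^ m := (Nat.pow_le_pow_left hu 6).trans (Nat.pow_le_pow_right (by omega) hm)
  have hlow : 5 * (u ^ m + 1) ≤ q ^ n + 1 := by rw [← heq]; exact Nat.mul_le_mul_right _ hh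
  rcases (show n = 6 ∨ n = 10 ∨ 14 ≤ n by omega) with hn | hn | hn
  · obtain ⟨R, r1, r2, r3⟩ := S.R6 hn
    have h1 := vnum_le (κ := 1) (by omega) (by omega) (by omega) (by omega) S.pm hδ heq r2
      (by rw [Nat.cast_one, one_mul]; exact r3) le_rfl hZ
    rw [one_mul] at h1
    have h2 := D.R_le S.pm r2 h1
    subst hn
    have hq7 : 7 ≤ q := by
      by_contra hcon
      have h7 : q ^ 6 ≤ 6 ^ 6 := Nat.pow_le_pow_left (by omega) 6
      norm_num at h7 hup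
      omega
    rcases (show q = 7 ∨ 9 ≤ q by omega) with h7 | h9
    · subst h7
      have hu6 : u = 5 := by
        by_contra hne
        have h8 : 6 ^ 6 ≤ u ^ m := (Nat.pow_le_pow_left (by omega : 6 ≤ u) 6).trans (Nat.pow_le_pow_right (by omega) hm)
        norm_num at h8 hlow
        omega
      subst hu6
      have hm6 : m = 6 := by
        by_contra hne
        have h8 : 5 ^ 7 ≤ 5 ^ m := Nat.pow_le_pow_right (by norm_num) (by omega)
        norm_num at h8 hlow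
        omega
      subst hm6
      norm_num at heq
      omega
    · obtain ⟨k, rfl⟩ := Nat.exists_eq_add_of_le h9
      have e1 : 2 * (9 + k) ^ 4 - 15 ≤ 15 * (R - 1) := by omega
      have e2 : 2 * (9 + k) ^ 4 - 15 * (9 + k) - 15 ≤ 15 * (R - ((9 + k) + 1)) := by omega
      have e3 : 5 * ((2 * (9 + k) ^ 4 - 15) * (2 * (9 + k) ^ 4 - 15 * (9 + k) - 15)) ≤ 1350 * (9 + k) ^ 6 := by
        calc 5 * ((2 * (9 + k) ^ 4 - 15) * (2 * (9 + k) ^ 4 - 15 * (9 + k) - 15))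
            ≤ 5 * ((15 * (R - 1)) * (15 * (R - ((9 + k) + 1)))) := by gcongr
          _ = 225 * (5 * ((R - 1) * (R - ((9 + k) + 1)))) := by ring
          _ ≤ 225 * (6 * (9 + k) ^ 6) := Nat.mul_le_mul_left _ h2
          _ = _ := by ring
      have e4 : 2 * (9 + k) ^ 4 - 15 = 13107 + 5832 * k + 972 * k ^ 2 + 72 * k ^ 3 + 2 * k ^ 4 := by
        have : 2 * (9 + k) ^ 4 = (13107 + 5832 * k + 972 * k ^ 2 + 72 * k ^ 3 + 2 * k ^ 4) + 15 := by ring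
        rw [this, Nat.add_sub_cancel]
      have e5 : 2 * (9 + k) ^ 4 - 15 * (9 + k) - 15 = 12972 + 5817 * k + 972 * k ^ 2 + 72 * k ^ 3 + 2 * k ^ 4 := by
        have : 2 * (9 + k) ^ 4 = (12972 + 5817 * k + 972 * k ^ 2 + 72 * k ^ 3 + 2 * k ^ 4) + 15 + 15 * (9 + k) := by ring
        rw [this, Nat.add_sub_cancel, Nat.add_sub_cancel]
      rw [e4, e5] at e3
      ring_nf at e3
      linarith [Nat.zero_le k, Nat.zero_le (k ^ 2), Nat.zero_le (k ^ 3), Nat.zero_le (k ^ 4), Nat.zero_le (k ^ 5),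
        Nat.zero_le (k ^ 6), Nat.zero_le (k ^ 7), Nat.zero_le (k ^ 8)]
  · obtain ⟨R, r1, r2, r3⟩ := S.R10 hn
    have h1 := vnum_le (κ := 1) (by omega) (by omega) (by omega) (by omega) S.pm hδ heq r2
      (by rw [Nat.cast_one, one_mul]; exact r3) le_rfl hZ
    rw [one_mul] at h1
    have h2 := D.R_le S.pm r2 h1
    subst hn
    have hq5 : 5 ≤ q := by
      by_contra hcon
      have h7 : q = 3 := by omega
      subst h7
      norm_num at hlow hup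
      omega
    obtain ⟨k, rfl⟩ := Nat.exists_eq_add_of_le hq5
    have e1 : (5 + k) ^ 6 - 4 ≤ 4 * (R - 1) := by omega
    have e2 : (5 + k) ^ 6 - 4 * (5 + k) - 4 ≤ 4 * (R - ((5 + k) + 1)) := by omega
    have e3 : 5 * (((5 + k) ^ 6 - 4) * ((5 + k) ^ 6 - 4 * (5 + k) - 4)) ≤ 96 * (5 + k) ^ 10 := by
      calc 5 * (((5 + k) ^ 6 - 4) * ((5 + k) ^ 6 - 4 * (5 + k) - 4))
          ≤ 5 * ((4 * (R - 1)) * (4 * (R - ((5 + k) + 1)))) := by gcongr
        _ = 16 * (5 * ((R - 1) * (R - ((5 + k) + 1)))) := by ring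
        _ ≤ 16 * (6 * (5 + k) ^ 10) := Nat.mul_le_mul_left _ h2
        _ = _ := by ring
    have e4 : (5 + k) ^ 6 - 4 = 15621 + 18750 * k + 9375 * k ^ 2 + 2500 * k ^ 3 + 375 * k ^ 4 + 30 * k ^ 5 + k ^ 6 := by
      have : (5 + k) ^ 6 = (15621 + 18750 * k + 9375 * k ^ 2 + 2500 * k ^ 3 + 375 * k ^ 4 + 30 * k ^ 5 + k ^ 6) + 4 := by
        ring
      rw [this, Nat.add_sub_cancel]
    have e5 : (5 + k) ^ 6 - 4 * (5 + k) - 4 =
        15601 + 18746 * k + 9375 * k ^ 2 + 2500 * k ^ 3 + 375 * k ^ 4 + 30 * k ^ 5 + k ^ 6 := by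
      have : (5 + k) ^ 6 = (15601 + 18746 * k + 9375 * k ^ 2 + 2500 * k ^ 3 + 375 * k ^ 4 + 30 * k ^ 5 + k ^ 6) + 4 +
          4 * (5 + k) := by ring
      rw [this, Nat.add_sub_cancel, Nat.add_sub_cancel]
    rw [e4, e5] at e3
    ring_nf at e3
    linarith [Nat.zero_le k, Nat.zero_le (k ^ 2), Nat.zero_le (k ^ 3), Nat.zero_le (k ^ 4), Nat.zero_le (k ^ 5),
      Nat.zero_le (k ^ 6), Nat.zero_le (k ^ 7), Nat.zero_le (k ^ 8), Nat.zero_le (k ^ 9), Nat.zero_le (k ^ 10),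
      Nat.zero_le (k ^ 11), Nat.zero_le (k ^ 12)]
  · -- `n ≥ 14`
    obtain ⟨κ, k1, k2, k3⟩ := S.T
    have h1 := vnum_le (by omega) (by omega) (by omega) (by omega) S.pm hδ heq dvd_rfl k3 k1 hZ
    have hm12 := D.m12 hn
    have a3 := AN_ge S.pm (m - 1) (by omega : 1 ≤ u)
    have b1 : u ^ (m - 1) ≤ 1 + (q + 1) * (h0 * (u + 1) + (q + 1)) := by
      calc u ^ (m - 1) ≤ AN ε (m - 1) u + 1 := a3
        _ ≤ (q + 1) * (h0 * (u + 1) + (q + 1)) + 1 := by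
          gcongr
          exact h1.trans (Nat.mul_le_mul_right _ k2)
        _ = _ := by ring
    have hum : u ^ m = u ^ (m - 1) * u := by rw [← pow_succ]; congr 1; omega
    have hum1 : 1 ≤ u ^ (m - 1) := Nat.one_le_pow _ _ (by omega)
    rcases le_or_gt (q + 1) (h0 * (u + 1)) with hI | hI
    · have b2 : q ^ n + 1 ≤ 3 * (h0 ^ 2 * (u * (u + 1)) * (q + 1)) := by
        have hW : 1 ≤ (q + 1) * (h0 * (u + 1)) := Nat.mul_pos (by omega) (Nat.mul_pos (by omega) (by omega))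
        calc q ^ n + 1 = h0 * (u ^ (m - 1) * u + 1) := by rw [← heq, hum]
          _ ≤ h0 * (u * (1 + (q + 1) * (h0 * (u + 1) + h0 * (u + 1))) + 1) := by
            rw [mul_comm (u ^ (m - 1)) u]
            gcongr
            refine b1.trans ?_
            gcongr
          _ = h0 * ((u + 1) + 2 * (u * ((q + 1) * (h0 * (u + 1))))) := by ring
          _ ≤ h0 * (u * ((q + 1) * (h0 * (u + 1))) + 2 * (u * ((q + 1) * (h0 * (u + 1))))) := by
            gcongr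
            calc u + 1 ≤ u * (h0 * (u + 1)) := by
                  have : 1 * (u + 1) ≤ (u * h0) * (u + 1) := Nat.mul_le_mul_right _ (Nat.mul_pos (by omega) (by omega))
                  calc u + 1 = 1 * (u + 1) := by ring
                    _ ≤ (u * h0) * (u + 1) := this
                    _ = _ := by ring
              _ ≤ u * ((q + 1) * (h0 * (u + 1))) := Nat.mul_le_mul_left _ (Nat.le_mul_of_pos_left _ (by omega))
          _ = _ := by ring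
      obtain ⟨f', hf1, hf2⟩ := D.hb
      obtain ⟨c, hc⟩ : ∃ c, n = 2 * c := ⟨n / 2, by omega⟩
      have hc' : n / 2 = c := by omega
      rw [hc'] at hf2
      have b3 : h0 ^ 2 ≤ (q ^ 2 + 1) ^ 2 * c ^ 2 * u := by
        calc h0 ^ 2 ≤ ((q ^ 2 + 1) * c * f') ^ 2 := Nat.pow_le_pow_left hf2 2
          _ = (q ^ 2 + 1) ^ 2 * c ^ 2 * f' ^ 2 := by ring
          _ ≤ _ := Nat.mul_le_mul_left _ hf1
      have b4 : 1215 * q ^ n ≤ 1215 * (8 * (c ^ 2 * (q ^ 5 * u ^ 3))) := by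
        have g1 : 9 * (q ^ 2 + 1) ≤ 10 * q ^ 2 := by nlinarith
        calc 1215 * q ^ n ≤ 1215 * (3 * (h0 ^ 2 * (u * (u + 1)) * (q + 1))) := by omega
          _ = 243 * (h0 ^ 2 * (u * (5 * (u + 1))) * (3 * (q + 1))) := by ring
          _ ≤ 243 * (((q ^ 2 + 1) ^ 2 * c ^ 2 * u) * (u * (6 * u)) * (4 * q)) :=
            Nat.mul_le_mul_left _ (Nat.mul_le_mul (Nat.mul_le_mul b3 (Nat.mul_le_mul_left _ (by omega))) (by omega))
          _ = 3 * ((9 * (q ^ 2 + 1)) ^ 2 * (c ^ 2 * u * (u * (6 * u)) * (4 * q))) := by ring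
          _ ≤ 3 * ((10 * q ^ 2) ^ 2 * (c ^ 2 * u * (u * (6 * u)) * (4 * q))) := by gcongr
          _ = 7200 * (c ^ 2 * (q ^ 5 * u ^ 3)) := by ring
          _ ≤ 9720 * (c ^ 2 * (q ^ 5 * u ^ 3)) := Nat.mul_le_mul_right _ (by norm_num)
          _ = _ := by ring
      have b5 : q ^ n ≤ 8 * (c ^ 2 * (q ^ 5 * u ^ 3)) := by omega
      have b6 : q ^ (n - 5) ≤ 2 * (n ^ 2 * u ^ 3) := by
        have g1 : q ^ 5 * q ^ (n - 5) ≤ q ^ 5 * (2 * (n ^ 2 * u ^ 3)) := by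
          calc q ^ 5 * q ^ (n - 5) = q ^ n := by rw [← pow_add]; congr 1; omega
            _ ≤ 8 * (c ^ 2 * (q ^ 5 * u ^ 3)) := b5
            _ = _ := by rw [hc]; ring
        exact Nat.le_of_mul_le_mul_left g1 (Nat.pow_pos (by omega))
      have b7 : u ^ 12 ≤ q ^ n := by
        have : u ^ 12 ≤ u ^ m := Nat.pow_le_pow_right (by omega) hm12
        omega
      have b8 : q ^ n * q ^ (3 * n - 20) ≤ q ^ n * (16 * n ^ 8) := by
        calc q ^ n * q ^ (3 * n - 20) = (q ^ (n - 5)) ^ 4 := by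
              rw [← pow_add, ← pow_mul]; congr 1; omega
          _ ≤ (2 * (n ^ 2 * u ^ 3)) ^ 4 := Nat.pow_le_pow_left b6 4
          _ = 16 * n ^ 8 * u ^ 12 := by ring
          _ ≤ 16 * n ^ 8 * q ^ n := Nat.mul_le_mul_left _ b7
          _ = _ := by ring
      have b9 := Nat.le_of_mul_le_mul_left b8 (Nat.pow_pos (by omega))
      have b10 := pow_big hn hn4
      have b11 : 3 ^ (3 * n - 20) ≤ q ^ (3 * n - 20) := Nat.pow_le_pow_left hq3 _
      omega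
    · have b2 : q ^ n + 1 ≤ 8 * q ^ 3 := by
        have g1 : 27 * (q ^ n + 1) ≤ 27 * (8 * q ^ 3) := by
          calc 27 * (q ^ n + 1) = 27 * (h0 * (u ^ (m - 1) * u + 1)) := by rw [← heq, hum]
            _ ≤ 27 * (h0 * (u ^ (m - 1) * u + u ^ (m - 1))) := by gcongr
            _ = 27 * (h0 * (u + 1) * u ^ (m - 1)) := by ring
            _ ≤ 27 * ((q + 1) * (1 + (q + 1) * ((q + 1) + (q + 1)))) := by
              gcongr
              refine b1.trans ?_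
              gcongr
            _ ≤ 27 * ((q + 1) * ((q + 1) * (q + 1) + (q + 1) * ((q + 1) + (q + 1)))) := by
              gcongr
              exact Nat.mul_pos (by omega) (by omega)
            _ = 3 * (3 * (q + 1)) ^ 3 := by ring
            _ ≤ 3 * (4 * q) ^ 3 := by gcongr 3 * ?_ ^ 3; omega
            _ ≤ _ := by ring_nf; nlinarith [Nat.zero_le (q ^ 3)]
        omega
      have b3 : q ^ 6 ≤ q ^ n := Nat.pow_le_pow_right (by omega) hn6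
      have b4 : 27 * q ^ 3 ≤ q ^ 6 := by
        calc 27 * q ^ 3 = 3 ^ 3 * q ^ 3 := by norm_num
          _ ≤ q ^ 3 * q ^ 3 := by gcongr
          _ = _ := by ring
      have b5 : 1 ≤ q ^ 3 := Nat.one_le_pow _ _ (by omega)
      omega

/-- **The contradiction.** -/
theorem VD.false (D : VD q n u m h0) {ε1 : ℤ} (S1 : VS q n u m ε1 1) (S2 : VS q n u m (-ε1) (-1)) : False := by
  by_cases h1 : (h0 * (ε1 * u + 1) - (1 + 1 * q) : ℤ) = 0
  · by_cases h2 : (h0 * (-ε1 * u + 1) - (1 + (-1) * q) : ℤ) = 0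
    · have h3 : 2 * (h0 : ℤ) = 2 := by linear_combination h1 + h2
      have := D.h5
      omega
    · exact D.ne (Or.inr rfl) S2 h2
  · exact D.ne (Or.inl rfl) S1 h1

end

end Cfsg.Agent.R2.Spec.X5
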